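import Cfsg.Agent.H939.L64.DefR

/-!
# S5915, R6: submodules, quotients and eigenvalue multiplicities (helper280)
-/

set_option autoImplicit false
set_option linter.unusedSectionVars false

namespace Cfsg.Agent.H280.L64

open Matrix Cfsg.Agent.H943.SL2Rel Cfsg.Agent.H943.RepAdd Cfsg.Agent.H939.L64

section Gen

variable {k : Type} [Field k] {G : Type} [Group G] {V : Type} [AddCommGroup V] [Module k V]
  (ρ : Representation k G V)

/-- invariance -/
abbrev Sub (W : Submodule k V) : Prop := ∀ g, ∀ x ∈ W, ρ g x ∈ W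

theorem rho_mul (g h : G) (x : V) : ρ g (ρ h x) = ρ (g * h) x := by
  rw [map_mul]; rfl

theorem rho_one (x : V) : ρ 1 x = x := by
  rw [map_one]; rfl

/-- isomorphic representations have the same multiplicities -/
theorem finrank_eig_equiv {V₁ V₂ : Type} [AddCommGroup V₁] [Module k V₁] [AddCommGroup V₂] [Module k V₂]
    {ρ₁ : Representation k G V₁} {ρ₂ : Representation k G V₂} (φ : V₁ ≃ₗ[k] V₂)
    (h : ∀ g x, φ (ρ₁ g x) = ρ₂ g (φ x)) (g : G) (μ : k) :
    Module.finrank k (eig ρ₁ g μ) = Module.finrank k (eig ρ₂ g μ) := by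
  have h1 : (eig ρ₁ g μ).map (φ : V₁ →ₗ[k] V₂) = eig ρ₂ g μ := by
    ext x
    constructor
    · rintro ⟨v, hv, rfl⟩
      rw [SetLike.mem_coe, mem_eig] at hv
      rw [mem_eig]
      show ρ₂ g (φ v) = μ • φ v
      rw [← h, hv, map_smul]
    · intro hx
      rw [mem_eig] at hx
      refine ⟨φ.symm x, ?_, φ.apply_symm_apply x⟩
      rw [SetLike.mem_coe, mem_eig]
      apply φ.injective
      rw [h, φ.apply_symm_apply, hx, map_smul, φ.apply_symm_apply]
  rw [← h1]
  exact (LinearEquiv.finrank_map_eq φ _).symm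

variable {W W' : Submodule k V}

theorem sub_map_mkQ (hW : Sub ρ W) (hW' : Sub ρ W') : Sub (quotRep ρ W hW) (W'.map W.mkQ) := by
  rintro g _ ⟨x, hx, rfl⟩
  exact ⟨ρ g x, hW' g x hx, (quotRep_mk ρ W hW g x).symm⟩

theorem eig_quot_quot (hW : Sub ρ W) (hW' : Sub ρ W') (h : W ≤ W') (g : G) (μ : k) :
    Module.finrank k (eig (quotRep (quotRep ρ W hW) (W'.map W.mkQ) (sub_map_mkQ ρ hW hW')) g μ) =
      Module.finrank k (eig (quotRep ρ W' hW') g μ) := by
  refine finrank_eig_equiv (Submodule.quotientQuotientEquivQuotient W W' h) ?_ g μ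
  intro g x
  obtain ⟨x, rfl⟩ := (W'.map W.mkQ).mkQ_surjective x
  obtain ⟨x, rfl⟩ := W.mkQ_surjective x
  rfl

theorem eig_bot_sub (hW : Sub ρ (⊥ : Submodule k V)) (g : G) (μ : k) :
    Module.finrank k (eig (subRep ρ ⊥ hW) g μ) = 0 := by
  have h1 : eig (subRep ρ ⊥ hW) g μ = ⊥ := by
    rw [eq_bot_iff]
    intro x _
    exact (Submodule.mem_bot k).2 (Subtype.ext ((Submodule.mem_bot k).1 x.2))
  rw [h1, finrank_bot]

/-- the coinvariants are trivial -/
def CoTop : Prop := Submodule.span k {x : V | ∃ g v, x = ρ g v - v} = ⊤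

theorem coTop_quot (hW : Sub ρ W) (h : CoTop ρ) : CoTop (quotRep ρ W hW) := by
  unfold CoTop at h ⊢
  have h1 : (Submodule.span k {x : V | ∃ g v, x = ρ g v - v}).map W.mkQ =
      Submodule.span k {x : V ⧸ W | ∃ g v, x = quotRep ρ W hW g v - v} := by
    rw [Submodule.map_span]
    congr 1
    ext x
    constructor
    · rintro ⟨_, ⟨g, v, rfl⟩, rfl⟩
      exact ⟨g, W.mkQ v, by rw [map_sub, quotRep_mk]⟩
    · rintro ⟨g, v, rfl⟩
      obtain ⟨v, rfl⟩ := W.mkQ_surjective v
      exact ⟨ρ g v - v, ⟨g, v, rfl⟩, by rw [map_sub, quotRep_mk]⟩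
  rw [← h1, h, Submodule.map_top, Submodule.range_mkQ]

theorem fix_dual (h : CoTop ρ) (f : Module.Dual k V) (hf : ∀ g, ρ.dual g f = f) : f = 0 := by
  have h1 : Submodule.span k {x : V | ∃ g v, x = ρ g v - v} ≤ LinearMap.ker f := by
    rw [Submodule.span_le]
    rintro _ ⟨g, v, rfl⟩
    rw [SetLike.mem_coe, LinearMap.mem_ker, map_sub, sub_eq_zero]
    have h2 := LinearMap.congr_fun (hf g⁻¹) v
    rw [Representation.dual_apply, inv_inv] at h2
    exact h2
  rw [h] at h1
  exact LinearMap.ext fun v => h1 (Submodule.mem_top (x := v))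

variable [FiniteDimensional k V]

theorem finrank_ker_dual (A : Module.End k V) :
    Module.finrank k (LinearMap.ker A.dualMap) = Module.finrank k (LinearMap.ker A) := by
  have h1 := LinearMap.finrank_range_add_finrank_ker A.dualMap
  have h2 := LinearMap.finrank_range_add_finrank_ker A
  rw [LinearMap.finrank_range_dualMap_eq_finrank_range, Subspace.dual_finrank_eq] at h1
  omega

theorem eig_dual (g : G) {μ : k} (hμ : μ ≠ 0) :
    Module.finrank k (eig ρ.dual g μ) = Module.finrank k (eig ρ g μ⁻¹) := by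
  have h1 : eig ρ.dual g μ = LinearMap.ker (ρ g⁻¹ - μ • (1 : Module.End k V)).dualMap := by
    ext f
    rw [mem_eig, LinearMap.mem_ker]
    constructor
    · intro h
      refine LinearMap.ext fun v => ?_
      have h2 := LinearMap.congr_fun h v
      rw [Representation.dual_apply] at h2
      show f ((ρ g⁻¹ - μ • (1 : Module.End k V)) v) = 0
      rw [LinearMap.sub_apply, map_sub, LinearMap.smul_apply, map_smul, Module.End.one_apply]
      have h3 : f (ρ g⁻¹ v) = μ • f v := h2
      rw [h3, sub_self]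
    · intro h
      refine LinearMap.ext fun v => ?_
      have h2 : f ((ρ g⁻¹ - μ • (1 : Module.End k V)) v) = 0 := LinearMap.congr_fun h v
      rw [LinearMap.sub_apply, map_sub, LinearMap.smul_apply, map_smul, Module.End.one_apply, sub_eq_zero] at h2
      exact h2
  have h2 : eig ρ g⁻¹ μ = eig ρ g μ⁻¹ := by
    ext v
    rw [mem_eig, mem_eig]
    constructor
    · intro h
      have h3 : ρ g (ρ g⁻¹ v) = v := by rw [rho_mul, mul_inv_cancel, rho_one]
      rw [h, map_smul] at h3
      rw [← h3, smul_smul, inv_mul_cancel₀ hμ, one_smul, h3]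
    · intro h
      have h3 : ρ g⁻¹ (ρ g v) = v := by rw [rho_mul, inv_mul_cancel, rho_one]
      rw [h, map_smul] at h3
      rw [← h3, smul_smul, mul_inv_cancel₀ hμ, one_smul, h3]
  rw [h1, finrank_ker_dual, ← h2]
  rfl

end Gen

end Cfsg.Agent.H280.L64
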