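import Cfsg.Agent.H280.L64.Tab
import Cfsg.Agent.H280.L64.Chain
import Cfsg.Agent.H875.L64.Add

/-!
# S5915, R6: the refined pressure theorem (helper280; the short proof is helper950's)
-/

set_option autoImplicit false
set_option linter.unusedSectionVars false

namespace Cfsg.Agent.H280.L64

open Matrix Cfsg.Agent.H943.SL2Rel Cfsg.Agent.H943.RepAdd Cfsg.Agent.H939.L64 Cfsg.Agent.H875.L64
open Cfsg.Agent.H943.SL2Mod (Irr Vb Db mon fRep MM mem_MM)

variable {k : Type} [Field k] [IsAlgClosed k] [CharP k 2] {F : Type} [Field F] [Fintype F] [DecidableEq F] {ι : F →+* k}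
  {lam : Fˣ} {y : SpecialLinearGroup (Fin 2) F} {ζ : k}

theorem nsmul65 (k : Type) [Field k] [CharP k 2] {V : Type} [AddCommGroup V] [Module k V] (x : V) : (65 : ℕ) • x = x := by
  have h : ((65 : ℕ) : k) = 1 := by
    have h2 : (2 : k) = 0 := CharTwo.two_eq_zero
    have e : ((65 : ℕ) : k) = 2 * 32 + 1 := by push_cast; ring
    rw [e, h2, zero_mul, zero_add]
  rw [← Nat.cast_smul_eq_nsmul k, h, one_smul]

/-- the inputs R1, R2, R3a, PR -/
structure Inp (ι : F →+* k) (lam : Fˣ) (y : SpecialLinearGroup (Fin 2) F) (ζ : k) : Prop where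
  ex : ∀ (V : Type) [AddCommGroup V] [Module k V] [FiniteDimensional k V]
    (ρ : Representation k (SpecialLinearGroup (Fin 2) F) V), ∃ m : ℕ → ℕ, SpecM ι ρ lam y ζ m
  pr : ∀ (V : Type) [AddCommGroup V] [Module k V] [FiniteDimensional k V]
    (ρ : Representation k (SpecialLinearGroup (Fin 2) F) V) (m : ℕ → ℕ), SpecM ι ρ lam y ζ m →
    m 0 ≤ Module.finrank k (fixS ρ) + ∑ i ∈ Finset.range 6, m (2 ^ i)
  irr : ∀ (V : Type) [AddCommGroup V] [Module k V] [FiniteDimensional k V]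
    (ρ : Representation k (SpecialLinearGroup (Fin 2) F) V), Irr ρ → ∃ b < 64, IsV ι b ρ ⊤
  wt : ∀ (V : Type) [AddCommGroup V] [Module k V] [FiniteDimensional k V]
    (ρ : Representation k (SpecialLinearGroup (Fin 2) F) V) (W : Submodule k V) (hW : ∀ g, ∀ x ∈ W, ρ g x ∈ W) (b : ℕ),
    b < 64 → IsV ι b ρ W → e65 (subRep ρ W hW) y ζ 0 = w65 b 0

section

variable {V : Type} [AddCommGroup V] [Module k V]

omit [IsAlgClosed k] [CharP k 2] [DecidableEq F] in
theorem spec_zero {ρ : Representation k (SpecialLinearGroup (Fin 2) F) V} {m : ℕ → ℕ} (h : SpecM ι ρ lam y ζ m) :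
    e65 ρ y ζ 0 = m 0 := by
  rw [h.1 0 (by norm_num)]
  rw [Finset.sum_congr rfl fun b hb => by rw [w65_zero b (Finset.mem_range.1 hb)]]
  simp

omit [IsAlgClosed k] [CharP k 2] [DecidableEq F] in
theorem spec_pow {ρ : Representation k (SpecialLinearGroup (Fin 2) F) V} {m : ℕ → ℕ} (h : SpecM ι ρ lam y ζ m)
    {i : ℕ} (hi : i < 6) (h0 : e65 ρ y ζ (2 ^ i) = 0) : m (2 ^ i) = 0 := by
  have hi' : 2 ^ i < 64 := by
    calc 2 ^ i < 2 ^ 6 := Nat.pow_lt_pow_right (by norm_num) hi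
      _ = 64 := by norm_num
  rw [h.1 (2 ^ i) (by omega)] at h0
  have h1 := (Finset.sum_eq_zero_iff.1 h0) (2 ^ i) (Finset.mem_range.2 hi')
  rw [w65_pow i hi, mul_one] at h1
  exact h1

variable (ρ : Representation k (SpecialLinearGroup (Fin 2) F) V)

/-- the sum over the powers of `y` -/
def Ny (y : SpecialLinearGroup (Fin 2) F) (x : V) : V := ∑ i ∈ Finset.range 65, ρ (y ^ i) x

omit [IsAlgClosed k] [CharP k 2] [DecidableEq F] in
theorem y_Ny (hy : y ^ 65 = 1) (x : V) : ρ y (Ny ρ y x) = Ny ρ y x := by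
  unfold Ny
  rw [map_sum]
  have h1 : ∀ i, ρ y (ρ (y ^ i) x) = ρ (y ^ (i + 1)) x := fun i => by rw [rho_mul, pow_succ']
  rw [Finset.sum_congr rfl fun i _ => h1 i]
  have h2 := Finset.sum_range_succ (fun i => ρ (y ^ i) x) 65
  rw [Finset.sum_range_succ', hy, pow_zero] at h2
  exact add_right_cancel h2

omit [IsAlgClosed k] [CharP k 2] [DecidableEq F] in
theorem pow_fix {x : V} (hx : ρ y x = x) (i : ℕ) : ρ (y ^ i) x = x := by
  induction i with
  | zero => rw [pow_zero, rho_one]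
  | succ i ih => rw [pow_succ, ← rho_mul, hx, ih]

omit [IsAlgClosed k] [CharP k 2] [DecidableEq F] in
theorem Ny_mem {W : Submodule k V} (hW : ∀ g, ∀ x ∈ W, ρ g x ∈ W) {x : V} (hx : x ∈ W) : Ny ρ y x ∈ W :=
  Submodule.sum_mem _ fun _ _ => hW _ x hx

omit [IsAlgClosed k] [DecidableEq F] in
theorem Ny_sub {W : Submodule k V} {x : V} (hx : ∀ g, ρ g x - x ∈ W) : Ny ρ y x - x ∈ W := by
  have h1 : Ny ρ y x - x = ∑ i ∈ Finset.range 65, (ρ (y ^ i) x - x) := by
    rw [Finset.sum_sub_distrib, Finset.sum_const, Finset.card_range, nsmul65 k]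
    rfl
  rw [h1]
  exact Submodule.sum_mem _ fun i _ => hx _

end

section Sigma

variable {V : Type} [AddCommGroup V] [Module k V] [FiniteDimensional k V]
  (ρ : Representation k (SpecialLinearGroup (Fin 2) F) V)

omit [CharP k 2] [DecidableEq F] in
/-- the Frobenius map moves the eigenspaces -/
theorem eig_sigma (σ : V →+ V) (hinj : Function.Injective σ) (hσ : ∀ (c : k) v, σ (c • v) = c ^ 2 • σ v)
    (hσρ : ∀ g v, σ (ρ g v) = ρ g (σ v)) (g : SpecialLinearGroup (Fin 2) F) (μ : k) :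
    Module.finrank k (eig ρ g μ) ≤ Module.finrank k (eig ρ g (μ ^ 2)) := by
  let j : eig ρ g μ →+ eig ρ g (μ ^ 2) :=
    { toFun := fun x => ⟨σ x, by
        have hx := (mem_eig ρ).1 x.2
        rw [mem_eig, ← hσρ, hx, hσ]⟩
      map_zero' := Subtype.ext (map_zero σ)
      map_add' := fun a b => Subtype.ext (map_add σ _ _) }
  have h1 : Module.rank k (eig ρ g μ) ≤ Module.rank k (eig ρ g (μ ^ 2)) := by
    refine rank_le_of_surjective_injective (fun c : k => c ^ 2) j ?_ ?_ ?_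
    · intro c
      obtain ⟨d, hd⟩ := IsAlgClosed.exists_pow_nat_eq c (n := 2) (by norm_num)
      exact ⟨d, hd⟩
    · intro a b h
      exact Subtype.ext (hinj (congrArg Subtype.val h))
    · intro c x
      exact Subtype.ext (hσ c x)
  have h2 := Module.rank_lt_aleph0 k (eig ρ g (μ ^ 2))
  exact Cardinal.toNat_le_toNat h1 h2

omit [CharP k 2] [DecidableEq F] in
theorem eig_chain (σ : V →+ V) (hinj : Function.Injective σ) (hσ : ∀ (c : k) v, σ (c • v) = c ^ 2 • σ v)
    (hσρ : ∀ g v, σ (ρ g v) = ρ g (σ v)) (g : SpecialLinearGroup (Fin 2) F) (μ : k) (n : ℕ) (hn : μ ^ 2 ^ (n + 1) = μ) :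
    Module.finrank k (eig ρ g (μ ^ 2)) = Module.finrank k (eig ρ g μ) := by
  apply le_antisymm _ (eig_sigma ρ σ hinj hσ hσρ g μ)
  have h1 : ∀ i, Module.finrank k (eig ρ g (μ ^ 2)) ≤ Module.finrank k (eig ρ g (μ ^ 2 ^ (i + 1))) := by
    intro i
    induction i with
    | zero => rw [zero_add, pow_one]
    | succ i ih =>
      refine ih.trans ?_
      have h2 := eig_sigma ρ σ hinj hσ hσρ g (μ ^ 2 ^ (i + 1))
      rwa [← pow_mul, ← pow_succ] at h2
  have h2 := h1 n
  rwa [hn] at h2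

/-- invariance of the multiplicities under the Frobenius map -/
theorem spec_sigma (D : Dat ι lam y ζ) (σ : V →+ V) (hinj : Function.Injective σ)
    (hσ : ∀ (c : k) v, σ (c • v) = c ^ 2 • σ v) (hσρ : ∀ g v, σ (ρ g v) = ρ g (σ v)) {m : ℕ → ℕ}
    (hm : SpecM ι ρ lam y ζ m) : ∀ b < 64, m (dbl b) = m b := by
  have hζ : ζ ^ 65 = 1 := D.prim.pow_eq_one
  have hl : ι lam ^ 63 = 1 := by
    have h1 : lam ^ 63 = 1 := by
      have h2 : Fintype.card Fˣ = 63 := by rw [Fintype.card_units, D.card]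
      rw [← h2, pow_card_eq_one]
    rw [← map_pow, ← Units.val_pow_eq_pow_val, h1, Units.val_one, map_one]
  have hz65 : ∀ j, ζ ^ (j % 65) = ζ ^ j := fun j => (pow_eq_pow_mod j hζ).symm
  have hz63 : ∀ j, ι lam ^ (j % 63) = ι lam ^ j := fun j => (pow_eq_pow_mod j hl).symm
  have h65 : ∀ j, e65 ρ y ζ (2 * j % 65) = e65 ρ y ζ j := by
    intro j
    unfold e65
    rw [hz65, mul_comm 2 j, pow_mul]
    refine eig_chain ρ σ hinj hσ hσρ y (ζ ^ j) 11 ?_
    have e : ζ ^ 2 ^ (11 + 1) = ζ := by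
      have : (2 : ℕ) ^ (11 + 1) = 65 * 63 + 1 := by norm_num
      rw [this, pow_add, pow_mul, hζ, one_pow, one_mul, pow_one]
    rw [← pow_mul, mul_comm j, pow_mul, e]
  have h63 : ∀ j, e63 ι ρ lam (2 * j % 63) = e63 ι ρ lam j := by
    intro j
    unfold e63
    rw [hz63, mul_comm 2 j, pow_mul]
    refine eig_chain ρ σ hinj hσ hσρ (h lam) (ι lam ^ j) 5 ?_
    have e : ι lam ^ 2 ^ (5 + 1) = ι lam := by
      have : (2 : ℕ) ^ (5 + 1) = 63 * 1 + 1 := by norm_num
      rw [this, pow_add, pow_mul, hl, one_pow, one_mul, pow_one]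
    rw [← pow_mul, mul_comm j, pow_mul, e]
  have hm' : SpecM ι ρ lam y ζ (fun b => m (dbl b)) := by
    constructor
    · intro j hj
      rw [← h65 j, hm.1 _ (Nat.mod_lt _ (by norm_num)), ← sum_dbl (fun b => m b * w65 b (2 * j % 65))]
      exact Finset.sum_congr rfl fun b hb => by rw [w65_dbl b (Finset.mem_range.1 hb) j hj]
    · intro j hj
      rw [← h63 j, hm.2 _ (Nat.mod_lt _ (by norm_num)), ← sum_dbl (fun b => m b * w63 b (2 * j % 63))]
      exact Finset.sum_congr rfl fun b hb => by rw [w63_dbl b (Finset.mem_range.1 hb) j hj]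
  exact specM_unique hm' hm

theorem spec_sigma_pow (D : Dat ι lam y ζ) (σ : V →+ V) (hinj : Function.Injective σ)
    (hσ : ∀ (c : k) v, σ (c • v) = c ^ 2 • σ v) (hσρ : ∀ g v, σ (ρ g v) = ρ g (σ v)) {m : ℕ → ℕ}
    (hm : SpecM ι ρ lam y ζ m) : ∀ i < 6, m (2 ^ i) = m 1 := by
  intro i
  induction i with
  | zero => intro _; rw [pow_zero]
  | succ i ih =>
    intro hi
    rw [← dbl_pow i (by omega), spec_sigma ρ D σ hinj hσ hσρ hm, ih (by omega)]
    calc 2 ^ i < 2 ^ 6 := Nat.pow_lt_pow_right (by norm_num) (by omega)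
      _ = 64 := by norm_num

end Sigma

end Cfsg.Agent.H280.L64
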