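import Cfsg.Agent.H280.L64.Ref

/-!
# S5915, R6: duality and the end of the proof (helper280; the short proof is helper950's)
-/

set_option autoImplicit false
set_option linter.unusedSectionVars false

namespace Cfsg.Agent.H280.L64

open Matrix Cfsg.Agent.H943.SL2Rel Cfsg.Agent.H943.RepAdd Cfsg.Agent.H939.L64 Cfsg.Agent.H875.L64
open Cfsg.Agent.H943.SL2Mod (Irr Vb Db mon fRep MM mem_MM)

variable {k : Type} [Field k] [IsAlgClosed k] [CharP k 2] {F : Type} [Field F] [Fintype F] [DecidableEq F] {ι : F →+* k}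
  {lam : Fˣ} {y : SpecialLinearGroup (Fin 2) F} {ζ : k}

section Form

variable {V : Type} [AddCommGroup V] [Module k V]
  (ρ : Representation k (SpecialLinearGroup (Fin 2) F) V) (B : V →ₗ[k] V →ₗ[k] k)

/-- the submodule generated by the vectors fixed by `y` -/
def V1 (y : SpecialLinearGroup (Fin 2) F) : Submodule k V := Submodule.span k {x | ∃ g v, ρ y v = v ∧ x = ρ g v}

theorem V1_inv : ∀ g, ∀ x ∈ V1 ρ y, ρ g x ∈ V1 ρ y := by
  intro g x hx
  induction hx using Submodule.span_induction with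
  | mem x hx =>
    obtain ⟨h, v, hv, rfl⟩ := hx
    exact Submodule.subset_span ⟨g * h, v, hv, rho_mul ρ g h v⟩
  | zero => rw [map_zero]; exact Submodule.zero_mem _
  | add a b _ _ ha hb => rw [map_add]; exact Submodule.add_mem _ ha hb
  | smul c a _ ha => rw [map_smul]; exact Submodule.smul_mem _ _ ha

theorem mem_V1 {v : V} (hv : ρ y v = v) : v ∈ V1 ρ y :=
  Submodule.subset_span ⟨1, v, hv, (rho_one ρ v).symm⟩

theorem V1_sigma (σ : V →+ V) (hσ : ∀ (c : k) v, σ (c • v) = c ^ 2 • σ v)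
    (hσρ : ∀ g v, σ (ρ g v) = ρ g (σ v)) : ∀ x ∈ V1 ρ y, σ x ∈ V1 ρ y := by
  intro x hx
  induction hx using Submodule.span_induction with
  | mem x hx =>
    obtain ⟨h, v, hv, rfl⟩ := hx
    exact Submodule.subset_span ⟨h, σ v, by rw [← hσρ, hv], hσρ h v⟩
  | zero => rw [map_zero]; exact Submodule.zero_mem _
  | add a b _ _ ha hb => rw [map_add]; exact Submodule.add_mem _ ha hb
  | smul c a _ ha => rw [hσ]; exact Submodule.smul_mem _ _ ha

/-- the orthogonal -/
def Or (W : Submodule k V) : Submodule k V where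
  carrier := {x | ∀ v ∈ W, B x v = 0}
  add_mem' := fun ha hb v hv => by rw [map_add, LinearMap.add_apply, ha v hv, hb v hv, add_zero]
  zero_mem' := fun v _ => by rw [map_zero, LinearMap.zero_apply]
  smul_mem' := fun c x hx v hv => by rw [map_smul, LinearMap.smul_apply, hx v hv, smul_zero]

variable {B}

theorem B_inv (hB : ∀ g v w, B (ρ g v) (ρ g w) = B v w) (g : SpecialLinearGroup (Fin 2) F) (v w : V) :
    B (ρ g v) w = B v (ρ g⁻¹ w) := by
  have h1 := hB g v (ρ g⁻¹ w)
  rwa [rho_mul, mul_inv_cancel, rho_one] at h1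

theorem Or_inv (hB : ∀ g v w, B (ρ g v) (ρ g w) = B v w) {W : Submodule k V} (hW : ∀ g, ∀ x ∈ W, ρ g x ∈ W) :
    ∀ g, ∀ x ∈ Or B W, ρ g x ∈ Or B W := by
  intro g x hx v hv
  rw [B_inv ρ hB]
  exact hx _ (hW _ v hv)

omit [IsAlgClosed k] in
theorem N_form (hB : ∀ g v w, B (ρ g v) (ρ g w) = B v w) (x : V) {v : V} (hv : ρ y v = v) :
    B (Ny ρ y x) v = B x v := by
  unfold Ny
  rw [map_sum, LinearMap.sum_apply]
  have h1 : ∀ i ∈ Finset.range 65, B (ρ (y ^ i) x) v = B x v := by
    intro i _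
    have h2 := hB (y ^ i) x v
    rwa [pow_fix ρ hv] at h2
  rw [Finset.sum_congr rfl h1, Finset.sum_const, Finset.card_range, nsmul65 k]

variable [FiniteDimensional k V]

theorem B_surj (hnd : ∀ v, (∀ w, B v w = 0) → v = 0) (f : Module.Dual k V) : ∃ a, B a = f := by
  have h1 : Function.Injective B := by
    rw [← LinearMap.ker_eq_bot, LinearMap.ker_eq_bot']
    intro v hv
    exact hnd v fun w => by rw [hv, LinearMap.zero_apply]
  exact (LinearMap.injective_iff_surjective_of_finrank_eq_finrank (Subspace.dual_finrank_eq (K := k) (V := V)).symm).1 h1 f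

/-- the orthogonal of `W` is the dual of `V / W` -/
theorem eig_or (hB : ∀ g v w, B (ρ g v) (ρ g w) = B v w) (hnd : ∀ v, (∀ w, B v w = 0) → v = 0)
    {W : Submodule k V} (hW : ∀ g, ∀ x ∈ W, ρ g x ∈ W) (g : SpecialLinearGroup (Fin 2) F) {μ : k} (hμ : μ ≠ 0) :
    Module.finrank k (eig (subRep ρ (Or B W) (Or_inv ρ hB hW)) g μ) =
      Module.finrank k (eig (quotRep ρ W hW) g μ⁻¹) := by
  let θ : Or B W →ₗ[k] Module.Dual k (V ⧸ W) :=
    { toFun := fun a => W.liftQ (B (a : V)) fun v hv => a.2 v hv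
      map_add' := fun a b => by
        refine LinearMap.ext fun x => ?_
        obtain ⟨x, rfl⟩ := W.mkQ_surjective x
        show B ((a : V) + b) x = B (a : V) x + B (b : V) x
        rw [map_add, LinearMap.add_apply]
      map_smul' := fun c a => by
        refine LinearMap.ext fun x => ?_
        obtain ⟨x, rfl⟩ := W.mkQ_surjective x
        show B (c • (a : V)) x = c • B (a : V) x
        rw [map_smul, LinearMap.smul_apply] }
  have hθ : ∀ (a : Or B W) (x : V), θ a (W.mkQ x) = B (a : V) x := fun a x => rfl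
  have hbij : Function.Bijective θ := by
    constructor
    · intro a b hab
      apply Subtype.ext
      rw [← sub_eq_zero]
      refine hnd _ fun w => ?_
      have h1 := LinearMap.congr_fun hab (W.mkQ w)
      rw [hθ, hθ] at h1
      rw [map_sub, LinearMap.sub_apply, h1, sub_self]
    · intro f
      obtain ⟨a, ha⟩ := B_surj hnd (f.comp W.mkQ)
      refine ⟨⟨a, fun v hv => ?_⟩, LinearMap.ext fun x => ?_⟩
      · rw [ha, LinearMap.comp_apply]
        have : W.mkQ v = 0 := by rwa [Submodule.mkQ_apply, Submodule.Quotient.mk_eq_zero]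
        rw [this, map_zero]
      · obtain ⟨x, rfl⟩ := W.mkQ_surjective x
        rw [hθ]
        show B a x = _
        rw [ha]
        rfl
  rw [finrank_eig_equiv (ρ₂ := (quotRep ρ W hW).dual) (LinearEquiv.ofBijective θ hbij) ?_ g μ, eig_dual _ _ hμ]
  intro g a
  refine LinearMap.ext fun x => ?_
  obtain ⟨x, rfl⟩ := W.mkQ_surjective x
  show θ (subRep ρ (Or B W) (Or_inv ρ hB hW) g a) (W.mkQ x) = θ a (quotRep ρ W hW g⁻¹ (W.mkQ x))
  rw [quotRep_mk, hθ, hθ, coe_subRep, B_inv ρ hB]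

theorem spec_or (D : Dat ι lam y ζ) (hB : ∀ g v w, B (ρ g v) (ρ g w) = B v w)
    (hnd : ∀ v, (∀ w, B v w = 0) → v = 0) {W : Submodule k V} (hW : ∀ g, ∀ x ∈ W, ρ g x ∈ W) {m : ℕ → ℕ}
    (hm : SpecM ι (quotRep ρ W hW) lam y ζ m) : SpecM ι (subRep ρ (Or B W) (Or_inv ρ hB hW)) lam y ζ m := by
  have hζ : ζ ^ 65 = 1 := D.prim.pow_eq_one
  have hl : ι lam ^ 63 = 1 := by
    have h1 : lam ^ 63 = 1 := by
      have h2 : Fintype.card Fˣ = 63 := by rw [Fintype.card_units, D.card]
      rw [← h2, pow_card_eq_one]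
    rw [← map_pow, ← Units.val_pow_eq_pow_val, h1, Units.val_one, map_one]
  have hζ0 : ζ ≠ 0 := D.prim.ne_zero (by norm_num)
  have hl0 : ι lam ≠ 0 := by
    intro h0
    rw [h0, zero_pow (by norm_num)] at hl
    exact zero_ne_one hl
  have inv65 : ∀ j < 65, (ζ ^ j)⁻¹ = ζ ^ ((65 - j) % 65) := by
    intro j hj
    rw [← pow_eq_pow_mod _ hζ]
    apply inv_eq_of_mul_eq_one_right
    rw [← pow_add, show j + (65 - j) = 65 by omega, hζ]
  have inv63 : ∀ j < 63, (ι lam ^ j)⁻¹ = ι lam ^ ((63 - j) % 63) := by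
    intro j hj
    rw [← pow_eq_pow_mod _ hl]
    apply inv_eq_of_mul_eq_one_right
    rw [← pow_add, show j + (63 - j) = 63 by omega, hl]
  constructor
  · intro j hj
    unfold e65
    rw [eig_or ρ hB hnd hW y (pow_ne_zero j hζ0), inv65 j hj]
    have h1 := hm.1 ((65 - j) % 65) (Nat.mod_lt _ (by norm_num))
    unfold e65 at h1
    rw [h1]
    exact Finset.sum_congr rfl fun b hb => by rw [w65_neg b (Finset.mem_range.1 hb) j hj]
  · intro j hj
    unfold e63
    rw [eig_or ρ hB hnd hW (h lam) (pow_ne_zero j hl0), inv63 j hj]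
    have h1 := hm.2 ((63 - j) % 63) (Nat.mod_lt _ (by norm_num))
    unfold e63 at h1
    rw [h1]
    exact Finset.sum_congr rfl fun b hb => by rw [w63_neg b (Finset.mem_range.1 hb) j hj]

end Form

section Irr

variable {V : Type} [AddCommGroup V] [Module k V] [FiniteDimensional k V]
  (ρ : Representation k (SpecialLinearGroup (Fin 2) F) V)

theorem fRep_const (g : SpecialLinearGroup (Fin 2) F) : fRep k F g (mon ι 0 0) = mon ι 0 0 := by
  funext z
  show mon ι 0 0 _ = mon ι 0 0 z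
  unfold mon
  simp

/-- an irreducible module is trivial or `y` has no fixed vector -/
theorem irr_cases (I : Inp ι lam y ζ) (hI : Irr ρ) :
    (∃ x, x ≠ 0 ∧ ∀ g, ρ g x = x) ∨ ∀ x, ρ y x = x → x = 0 := by
  obtain ⟨b, hb, hV⟩ := I.irr V ρ hI
  have hT : ∀ g, ∀ x ∈ (⊤ : Submodule k V), ρ g x ∈ (⊤ : Submodule k V) := fun _ _ _ => Submodule.mem_top
  by_cases hb0 : b = 0
  · left
    subst hb0
    obtain ⟨φ, h1, -, h3⟩ := hV
    have hmem : mon ι 0 0 ∈ Vb ι 0 := by
      have h4 : fRep k F (u 0) (fRep k F w (mon ι 0 0)) ∈ MM (fRep k F) (Db ι 0) :=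
        mem_MM _ 0 (Submodule.mem_span_singleton_self _)
      rw [fRep_const, fRep_const] at h4
      exact h4
    refine ⟨φ (mon ι 0 0), fun h0 => ?_, fun g => ?_⟩
    · have h4 := congrFun (h3 _ hmem h0) (0, 0)
      unfold mon at h4
      simp at h4
    · rw [← (h1 g _ hmem).2, fRep_const]
  · right
    have h1 := I.wt V ρ ⊤ hT b hb hV
    rw [w65_zero b hb, if_neg hb0] at h1
    unfold e65 at h1
    rw [pow_zero, Submodule.finrank_eq_zero] at h1
    intro x hx
    have h2 : (⟨x, Submodule.mem_top⟩ : (⊤ : Submodule k V)) ∈ eig (subRep ρ ⊤ hT) y 1 := by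
      rw [mem_eig, one_smul]
      exact Subtype.ext hx
    rw [h1] at h2
    exact congrArg Subtype.val ((Submodule.mem_bot k).1 h2)

end Irr

end Cfsg.Agent.H280.L64
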