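import Cfsg.Agent.H280.L64.RefB

/-!
# S5915, R6: the refined pressure theorem (helper280; the short proof is helper950's)
-/

set_option autoImplicit false
set_option linter.unusedSectionVars false

namespace Cfsg.Agent.H280.L64

open Matrix Cfsg.Agent.H943.SL2Rel Cfsg.Agent.H943.RepAdd Cfsg.Agent.H939.L64 Cfsg.Agent.H875.L64
open Cfsg.Agent.H943.SL2Mod (Irr)

variable {k : Type} [Field k] [IsAlgClosed k] [CharP k 2] {F : Type} [Field F] [Fintype F] [DecidableEq F] {ι : F →+* k}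
  {lam : Fˣ} {y : SpecialLinearGroup (Fin 2) F} {ζ : k}
  {V : Type} [AddCommGroup V] [Module k V] [FiniteDimensional k V]
  (ρ : Representation k (SpecialLinearGroup (Fin 2) F) V)

/-- the vectors fixed modulo `A` -/
def Cf (A : Submodule k V) (hA : ∀ g, ∀ x ∈ A, ρ g x ∈ A) : Submodule k V where
  carrier := {x | ∀ g, ρ g x - x ∈ A}
  add_mem' := fun {a b} ha hb g => by
    have : ρ g (a + b) - (a + b) = (ρ g a - a) + (ρ g b - b) := by rw [map_add]; abel
    rw [this]
    exact A.add_mem (ha g) (hb g)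
  zero_mem' := fun g => by rw [map_zero, sub_zero]; exact A.zero_mem
  smul_mem' := fun c x hx g => by
    rw [map_smul, ← smul_sub]
    exact A.smul_mem c (hx g)

theorem le_Cf {A : Submodule k V} (hA : ∀ g, ∀ x ∈ A, ρ g x ∈ A) : A ≤ Cf ρ A hA :=
  fun x hx g => A.sub_mem (hA g x hx) hx

theorem Cf_inv {A : Submodule k V} (hA : ∀ g, ∀ x ∈ A, ρ g x ∈ A) : ∀ g, ∀ x ∈ Cf ρ A hA, ρ g x ∈ Cf ρ A hA := by
  intro g x hx
  have h1 : ρ g x = (ρ g x - x) + x := by abel
  rw [h1]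
  exact Submodule.add_mem _ (le_Cf ρ hA (hx g)) hx

/-- the multiplicities of `Cf A` at the powers of two are those of `A` -/
theorem spec_Cf (D : Dat ι lam y ζ) (I : Inp ι lam y ζ) {A : Submodule k V} (hA : ∀ g, ∀ x ∈ A, ρ g x ∈ A) {mA mC : ℕ → ℕ}
    (hmA : SpecM ι (subRep ρ A hA) lam y ζ mA) (hmC : SpecM ι (subRep ρ (Cf ρ A hA) (Cf_inv ρ hA)) lam y ζ mC)
    {i : ℕ} (hi : i < 6) : mC (2 ^ i) = mA (2 ^ i) := by
  have hi' : 2 ^ i < 64 := by
    calc 2 ^ i < 2 ^ 6 := Nat.pow_lt_pow_right (by norm_num) hi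
      _ = 64 := by norm_num
  set C := Cf ρ A hA with hC
  set ρC := subRep ρ C (Cf_inv ρ hA) with hρC
  let A' : Submodule k C := A.comap C.subtype
  have hA' : ∀ g, ∀ x ∈ A', ρC g x ∈ A' := fun g x hx => hA g _ hx
  have hmA' : SpecM ι (subRep ρC A' hA') lam y ζ mA := by
    have hiso : ∀ g (μ : k), Module.finrank k (eig (subRep ρC A' hA') g μ) = Module.finrank k (eig (subRep ρ A hA) g μ) := by
      intro g μ
      refine finrank_eig_equiv (Submodule.comapSubtypeEquivOfLe (le_Cf ρ hA)) ?_ g μ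
      intro g x
      rfl
    constructor
    · intro j hj
      have h1 := hmA.1 j hj
      unfold e65 at h1 ⊢
      rw [hiso, h1]
    · intro j hj
      have h1 := hmA.2 j hj
      unfold e63 at h1 ⊢
      rw [hiso, h1]
  obtain ⟨mq, hmq⟩ := I.ex _ (quotRep ρC A' hA')
  have hq0 : mq (2 ^ i) = 0 := by
    apply spec_pow hmq hi
    have h1 : eig (quotRep ρC A' hA') y (ζ ^ 2 ^ i) = ⊥ := by
      rw [eq_bot_iff]
      intro x hx
      obtain ⟨x, rfl⟩ := A'.mkQ_surjective x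
      rw [mem_eig, quotRep_mk] at hx
      have h2 : A'.mkQ (ρC y x) = A'.mkQ x := by
        rw [← sub_eq_zero, ← map_sub, Submodule.mkQ_apply, Submodule.Quotient.mk_eq_zero]
        exact x.2 y
      rw [h2] at hx
      have h3 : (ζ ^ 2 ^ i - 1) • A'.mkQ x = 0 := by rw [sub_smul, one_smul, ← hx, sub_self]
      rcases smul_eq_zero.1 h3 with h4 | h4
      · exfalso
        have h5 := D.prim.dvd_of_pow_eq_one _ (sub_eq_zero.1 h4)
        have h6 := Nat.le_of_dvd (by positivity) h5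
        omega
      · exact (Submodule.mem_bot k).2 h4
    unfold e65
    rw [h1, finrank_bot]
  have h1 := R3c D ρC A' hA' hmC hmA' hmq (2 ^ i) hi'
  rw [hq0, add_zero] at h1
  exact h1

/-- **R6: the refined pressure theorem**, from the inputs -/
theorem R6_of (D : Dat ι lam y ζ) (I : Inp ι lam y ζ) (B : V →ₗ[k] V →ₗ[k] k)
    (hB : ∀ g v w, B (ρ g v) (ρ g w) = B v w) (hnd : ∀ v, (∀ w, B v w = 0) → v = 0)
    (σ : V ≃+ V) (hσ : ∀ (c : k) v, σ (c • v) = c ^ 2 • σ v) (hσρ : ∀ g v, σ (ρ g v) = ρ g (σ v))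
    {m : ℕ → ℕ} (hm : SpecM ι ρ lam y ζ m) (h0 : fixS ρ = ⊥) (hpos : m 0 ≠ 0) : m 0 + 6 ≤ 6 * m 1 := by
  have hy : y ^ 65 = 1 := y_pow D
  have hV1 := V1_inv (y := y) ρ
  obtain ⟨m1, hm1⟩ := I.ex _ (subRep ρ (V1 ρ y) hV1)
  obtain ⟨mq, hmq⟩ := I.ex _ (quotRep ρ (V1 ρ y) hV1)
  have hadd := R3c D ρ (V1 ρ y) hV1 hm hm1 hmq
  -- `σ`-invariance
  have hs := spec_sigma_pow ρ D (σ : V →+ V) σ.injective hσ hσρ hm
  let σ1 : V1 ρ y →+ V1 ρ y :=
    { toFun := fun x => ⟨σ x, V1_sigma ρ (σ : V →+ V) hσ hσρ x x.2⟩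
      map_zero' := Subtype.ext (map_zero σ)
      map_add' := fun a b => Subtype.ext (map_add σ _ _) }
  have hs1 := spec_sigma_pow (subRep ρ (V1 ρ y) hV1) D σ1
    (fun a b h => Subtype.ext (σ.injective (congrArg Subtype.val h))) (fun c v => Subtype.ext (hσ c v))
    (fun g v => Subtype.ext (hσρ g v)) hm1
  -- the multiplicity of the trivial module
  have hm10 : m1 0 = m 0 := by
    rw [← spec_zero hm1, ← spec_zero hm]
    unfold e65
    rw [pow_zero]
    have h1 : (eig (subRep ρ (V1 ρ y) hV1) y 1).map (V1 ρ y).subtype = eig ρ y 1 := by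
      ext x
      rw [mem_eig, one_smul]
      constructor
      · rintro ⟨v, hv, rfl⟩
        rw [SetLike.mem_coe, mem_eig, one_smul] at hv
        exact congrArg Subtype.val hv
      · intro hx
        refine ⟨⟨x, mem_V1 ρ hx⟩, ?_, rfl⟩
        rw [SetLike.mem_coe, mem_eig, one_smul]
        exact Subtype.ext hx
    rw [← h1]
    exact (Submodule.equivMapOfInjective (V1 ρ y).subtype (V1 ρ y).injective_subtype _).finrank_eq
  have hfix1 : fixS (subRep ρ (V1 ρ y) hV1) = ⊥ := by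
    rw [eq_bot_iff]
    intro x hx
    have h1 : (x : V) ∈ fixS ρ := fun g => congrArg Subtype.val (hx g)
    rw [h0] at h1
    exact (Submodule.mem_bot k).2 (Subtype.ext ((Submodule.mem_bot k).1 h1))
  have hpr1 := I.pr _ _ m1 hm1
  rw [hfix1, finrank_bot, zero_add, hm10, Finset.sum_congr rfl fun i hi => hs1 i (Finset.mem_range.1 hi),
    Finset.sum_const, Finset.card_range, smul_eq_mul] at hpr1
  have ha1 := hadd 1 (by norm_num)
  by_cases hq1 : mq 1 = 0
  swap
  · omega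
  exfalso
  -- the orthogonal of `V1`
  have hA := Or_inv ρ hB hV1
  have hmA := spec_or ρ D hB hnd hV1 hmq
  have hAy : ∀ x ∈ Or B (V1 ρ y), ρ y x = x → x = 0 := by
    intro x hx hyx
    refine hnd x fun w => ?_
    have h1 := N_form (y := y) ρ (B := B.flip) (fun g v w => hB g w v) w hyx
    rw [LinearMap.flip_apply, LinearMap.flip_apply] at h1
    rw [← h1]
    exact hx _ (mem_V1 ρ (y_Ny ρ hy w))
  have hmq0 : ∀ i < 6, mq (2 ^ i) = 0 := by
    intro i hi
    have hi' : 2 ^ i < 64 := by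
      calc 2 ^ i < 2 ^ 6 := Nat.pow_lt_pow_right (by norm_num) hi
        _ = 64 := by norm_num
    have h1 := hadd (2 ^ i) hi'
    rw [hs i hi, hs1 i hi] at h1
    omega
  -- the vectors fixed modulo `A`
  set A := Or B (V1 ρ y) with hAdef
  obtain ⟨mC, hmC⟩ := I.ex _ (subRep ρ (Cf ρ A hA) (Cf_inv ρ hA))
  have hmC0 : mC 0 = 0 := by
    have h1 := I.pr _ _ mC hmC
    have h2 : fixS (subRep ρ (Cf ρ A hA) (Cf_inv ρ hA)) = ⊥ := by
      rw [eq_bot_iff]
      intro x hx
      have h1 : (x : V) ∈ fixS ρ := fun g => congrArg Subtype.val (hx g)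
      rw [h0] at h1
      exact (Submodule.mem_bot k).2 (Subtype.ext ((Submodule.mem_bot k).1 h1))
    rw [h2, finrank_bot, zero_add, Finset.sum_eq_zero] at h1
    · omega
    · intro i hi
      rw [spec_Cf ρ D I hA hmA hmC (Finset.mem_range.1 hi), hmq0 i (Finset.mem_range.1 hi)]
  -- `Cf A = A`
  have hCA : ∀ x ∈ Cf ρ A hA, x ∈ A := by
    intro x hx
    have h1 : Ny ρ y x - x ∈ A := Ny_sub ρ (fun g => hx g)
    have h2 : Ny ρ y x ∈ Cf ρ A hA := Ny_mem ρ (Cf_inv ρ hA) hx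
    have h3 : (⟨Ny ρ y x, h2⟩ : Cf ρ A hA) ∈ eig (subRep ρ (Cf ρ A hA) (Cf_inv ρ hA)) y (ζ ^ 0) := by
      rw [pow_zero, mem_eig, one_smul]
      exact Subtype.ext (y_Ny ρ hy x)
    have h4 : eig (subRep ρ (Cf ρ A hA) (Cf_inv ρ hA)) y (ζ ^ 0) = ⊥ := by
      rw [← Submodule.finrank_eq_zero (R := k)]
      have h5 := spec_zero hmC
      rw [hmC0] at h5
      exact h5
    rw [h4] at h3
    have h5 : Ny ρ y x = 0 := congrArg Subtype.val ((Submodule.mem_bot k).1 h3)
    rw [h5, zero_sub] at h1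
    exact (Submodule.neg_mem_iff A).1 h1
  -- `A ≠ ⊤`
  have hAtop : A ≠ ⊤ := by
    intro h1
    have h2 : eig ρ y (ζ ^ 0) = ⊥ := by
      rw [eq_bot_iff]
      intro x hx
      rw [pow_zero, mem_eig, one_smul] at hx
      exact (Submodule.mem_bot k).2 (hAy x (by rw [h1]; exact Submodule.mem_top) hx)
    apply hpos
    rw [← spec_zero hm]
    unfold e65
    rw [h2, finrank_bot]
  have hnt : Nontrivial (V ⧸ A) := Submodule.Quotient.nontrivial_iff.2 hAtop
  obtain ⟨W, hW, hWb, hWmin⟩ := exists_irr_sub (quotRep ρ A hA)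
  have hIW : Irr (subRep (quotRep ρ A hA) W hW) := by
    refine ⟨Submodule.nontrivial_iff_ne_bot.2 hWb, fun W' hW' => ?_⟩
    rcases hWmin (W'.map W.subtype) (Submodule.map_subtype_le _ _) (by
      rintro g _ ⟨x, hx, rfl⟩
      exact ⟨_, hW' g x hx, rfl⟩) with h1 | h1
    · left
      rw [eq_bot_iff]
      intro x hx
      have h2 : (x : V ⧸ A) ∈ W'.map W.subtype := ⟨x, hx, rfl⟩
      rw [h1] at h2
      exact (Submodule.mem_bot k).2 (Subtype.ext ((Submodule.mem_bot k).1 h2))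
    · right
      rw [eq_top_iff]
      intro x _
      have h2 : (x : V ⧸ A) ∈ W'.map W.subtype := by rw [h1]; exact x.2
      obtain ⟨z, hz, e⟩ := h2
      rwa [← Subtype.ext (p := fun z => z ∈ W) e]
  rcases irr_cases _ I hIW with ⟨x, hx0, hx⟩ | hx
  · -- a fixed vector of `V / A`
    obtain ⟨x, hxW⟩ := x
    obtain ⟨x, rfl⟩ := A.mkQ_surjective x
    have h1 : x ∈ Cf ρ A hA := by
      intro g
      have h2 : quotRep ρ A hA g (A.mkQ x) = A.mkQ x := congrArg Subtype.val (hx g)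
      rw [quotRep_mk, ← sub_eq_zero, ← map_sub, Submodule.mkQ_apply, Submodule.Quotient.mk_eq_zero] at h2
      exact h2
    apply hx0
    apply Subtype.ext
    show A.mkQ x = 0
    rw [Submodule.mkQ_apply, Submodule.Quotient.mk_eq_zero]
    exact hCA x h1
  · -- the preimage of `W` lies in `A`
    have hW' : ∀ g, ∀ x ∈ W.comap A.mkQ, ρ g x ∈ W.comap A.mkQ := by
      intro g x hx
      rw [Submodule.mem_comap, ← quotRep_mk ρ A hA]
      exact hW g _ hx
    have hWy : ∀ x ∈ W.comap A.mkQ, ρ y x = x → x = 0 := by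
      intro x hxW hyx
      have h1 := hx ⟨A.mkQ x, hxW⟩ (Subtype.ext (by
        show quotRep ρ A hA y (A.mkQ x) = A.mkQ x
        rw [quotRep_mk, hyx]))
      have h2 : A.mkQ x = 0 := congrArg Subtype.val h1
      rw [Submodule.mkQ_apply, Submodule.Quotient.mk_eq_zero] at h2
      exact hAy x h2 hyx
    have hle : W.comap A.mkQ ≤ A := by
      intro x hxW v hv
      have h1 : ∀ x ∈ W.comap A.mkQ, ∀ v, ρ y v = v → B x v = 0 := by
        intro x hxW v hv
        rw [← N_form ρ hB x hv, hWy _ (Ny_mem ρ hW' hxW) (y_Ny ρ hy x), map_zero, LinearMap.zero_apply]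
      induction hv using Submodule.span_induction with
      | mem v hv =>
        obtain ⟨g, v, hv, rfl⟩ := hv
        have h2 := B_inv ρ hB g⁻¹ x v
        rw [inv_inv] at h2
        rw [← h2]
        exact h1 _ (hW' _ x hxW) v hv
      | zero => rw [map_zero]
      | add a b _ _ ha hb => rw [map_add, ha, hb, add_zero]
      | smul c a _ ha => rw [map_smul, ha, smul_zero]
    apply hWb
    rw [eq_bot_iff]
    intro x hxW
    obtain ⟨x, rfl⟩ := A.mkQ_surjective x
    rw [Submodule.mem_bot, Submodule.mkQ_apply, Submodule.Quotient.mk_eq_zero]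
    exact hle hxW

end Cfsg.Agent.H280.L64
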