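import Cfsg.Agent.H939.L64.DefR

/-!
# S5915, R6: tables (helper280)
-/

set_option autoImplicit false
set_option maxRecDepth 100000

namespace Cfsg.Agent.H280.L64

open Cfsg.Agent.H939.L64

/-- the Frobenius twist on the labels of the simple modules -/
def dbl (b : ℕ) : ℕ := if b = 63 then 63 else 2 * b % 63

theorem w65_dbl : ∀ b < 64, ∀ j < 65, w65 (dbl b) (2 * j % 65) = w65 b j := by decide +kernel

theorem w63_dbl : ∀ b < 64, ∀ j < 63, w63 (dbl b) (2 * j % 63) = w63 b j := by decide +kernel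

theorem w65_neg : ∀ b < 64, ∀ j < 65, w65 b ((65 - j) % 65) = w65 b j := by decide +kernel

theorem w63_neg : ∀ b < 64, ∀ j < 63, w63 b ((63 - j) % 63) = w63 b j := by decide +kernel

theorem w65_zero : ∀ b < 64, w65 b 0 = if b = 0 then 1 else 0 := by decide +kernel

theorem w65_pow : ∀ i < 6, w65 (2 ^ i) (2 ^ i) = 1 := by decide +kernel

theorem dbl_pow : ∀ i < 5, dbl (2 ^ i) = 2 ^ (i + 1) := by decide +kernel

theorem dbl_lt : ∀ b < 64, dbl b < 64 := by decide +kernel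

theorem dbl_inj : ∀ b < 64, ∀ c < 64, dbl b = dbl c → b = c := by decide +kernel

theorem dbl_surj : ∀ c < 64, ∃ b, b < 64 ∧ dbl b = c := by
  intro c hc
  have h : Function.Surjective (fun b : Fin 64 => (⟨dbl b.1, dbl_lt b.1 b.2⟩ : Fin 64)) := by
    apply Finite.surjective_of_injective
    intro b c h
    exact Fin.ext (dbl_inj b.1 b.2 c.1 c.2 (congrArg Fin.val h))
  obtain ⟨b, hb⟩ := h ⟨c, hc⟩
  exact ⟨b.1, b.2, congrArg Fin.val hb⟩

theorem two_mul_mod_surj65 : ∀ j < 65, ∃ i, i < 65 ∧ 2 * i % 65 = j := by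
  intro j hj
  refine ⟨33 * j % 65, Nat.mod_lt _ (by norm_num), ?_⟩
  omega

theorem two_mul_mod_surj63 : ∀ j < 63, ∃ i, i < 63 ∧ 2 * i % 63 = j := by
  intro j hj
  refine ⟨32 * j % 63, Nat.mod_lt _ (by norm_num), ?_⟩
  omega

/-- reindexing by `dbl` -/
theorem sum_dbl (f : ℕ → ℕ) : ∑ b ∈ Finset.range 64, f (dbl b) = ∑ b ∈ Finset.range 64, f b := by
  refine Finset.sum_bij (fun b _ => dbl b) ?_ ?_ ?_ ?_
  · intro b hb
    exact Finset.mem_range.2 (dbl_lt b (Finset.mem_range.1 hb))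
  · intro b hb c hc h
    exact dbl_inj b (Finset.mem_range.1 hb) c (Finset.mem_range.1 hc) h
  · intro c hc
    obtain ⟨b, h1, h2⟩ := dbl_surj c (Finset.mem_range.1 hc)
    exact ⟨b, Finset.mem_range.2 h1, h2⟩
  · intro b _
    rfl

end Cfsg.Agent.H280.L64
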